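import Cfsg.Agent.Lib.Invol.ThreeTransp
import Cfsg.Agent.Lib.GL.AltBasis

set_option autoImplicit false

/-! # The symplectic group is generated by transvections -/

namespace Cfsg.Agent.Lib.Invol

open Matrix Cfsg.Agent.Lib.GL.Alt Cfsg.Agent.Lib.Forms

variable {F : Type*} [Field F] {m : ℕ}

theorem sympTransvection_mulVec (v x : Fin m ⊕ Fin m → F) (c : F) :
    Cfsg.sympTransvection m v c *ᵥ x = x + (c * sympBilin m F x v) • v := by
  rw [Cfsg.sympTransvection, add_mulVec, one_mulVec, smul_mulVec, vecMulVec_mulVec,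
    sympBilin_apply, Cfsg.sympForm, dotProduct_comm, mul_smul]
  simp

theorem sp_bilin (g : Matrix.symplecticGroup (Fin m) F) (u v : Fin m ⊕ Fin m → F) :
    sympBilin m F (g.1 *ᵥ u) (g.1 *ᵥ v) = sympBilin m F u v := by
  rw [sympBilin_apply, sympBilin_apply]
  exact (mem_symplecticGroup_iff_sympForm g.1).mp g.2 u v

theorem sympBilin_self (v : Fin m ⊕ Fin m → F) : sympBilin m F v v = 0 := sympBilin_isAlt m v

theorem sympBilin_swap (u v : Fin m ⊕ Fin m → F) : sympBilin m F u v = -sympBilin m F v u :=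
  ((sympBilin_isAlt m).neg_eq v u).symm

theorem eq_zero_of_sympBilin {v : Fin m ⊕ Fin m → F} (h : ∀ u, sympBilin m F u v = 0) : v = 0 :=
  (sympBilin_nondegenerate m).2 v h

/-- The symplectic transvection as an element of the symplectic group. -/
def spT (v : Fin m ⊕ Fin m → F) (c : F) : Matrix.symplecticGroup (Fin m) F :=
  ⟨Cfsg.sympTransvection m v c, by
    rw [mem_symplecticGroup_iff_sympForm]
    intro x y
    rw [← sympBilin_apply, ← sympBilin_apply, sympTransvection_mulVec, sympTransvection_mulVec]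
    simp only [map_add, map_smul, LinearMap.add_apply, LinearMap.smul_apply, smul_eq_mul,
      sympBilin_self, sympBilin_swap v y]
    ring⟩

theorem spT_mulVec (v x : Fin m ⊕ Fin m → F) (c : F) :
    (spT v c).1 *ᵥ x = x + (c * sympBilin m F x v) • v := sympTransvection_mulVec v x c

theorem sp_ext {g h : Matrix.symplecticGroup (Fin m) F} (e : ∀ x, g.1 *ᵥ x = h.1 *ᵥ x) : g = h :=
  Subtype.ext (Matrix.toLin'.injective (LinearMap.ext e))

theorem sp_mul_mulVec (g h : Matrix.symplecticGroup (Fin m) F) (x : Fin m ⊕ Fin m → F) :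
    (g * h).1 *ᵥ x = g.1 *ᵥ (h.1 *ᵥ x) := by
  rw [mulVec_mulVec]; rfl

theorem sp_one_mulVec (x : Fin m ⊕ Fin m → F) :
    (1 : Matrix.symplecticGroup (Fin m) F).1 *ᵥ x = x := one_mulVec x

theorem conj_spT (g : Matrix.symplecticGroup (Fin m) F) (v : Fin m ⊕ Fin m → F) (c : F) :
    g * spT v c * g⁻¹ = spT (g.1 *ᵥ v) c := by
  rw [mul_inv_eq_iff_eq_mul]
  refine sp_ext fun x => ?_
  rw [sp_mul_mulVec, sp_mul_mulVec, spT_mulVec, spT_mulVec, sp_bilin, mulVec_add, mulVec_smul]

/-- The fixed space of an element of the symplectic group. -/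
def spFix (g : Matrix.symplecticGroup (Fin m) F) : Submodule F (Fin m ⊕ Fin m → F) :=
  LinearMap.ker (g.1.mulVecLin - LinearMap.id)

theorem mem_spFix {g : Matrix.symplecticGroup (Fin m) F} {x : Fin m ⊕ Fin m → F} :
    x ∈ spFix g ↔ g.1 *ᵥ x = x := by
  simp [spFix, sub_eq_zero]

theorem spFix_le (g : Matrix.symplecticGroup (Fin m) F) (v : Fin m ⊕ Fin m → F) (c : F) :
    spFix g ≤ spFix (spT (g.1 *ᵥ v - v) c * g) := by
  intro x hx
  rw [mem_spFix] at hx ⊢
  have : sympBilin m F x (g.1 *ᵥ v) = sympBilin m F x v := by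
    rw [← sp_bilin g x v, hx]
  rw [sp_mul_mulVec, hx, spT_mulVec, map_sub, this]
  simp

theorem exists_spFix_lt (g : Matrix.symplecticGroup (Fin m) F) {v : Fin m ⊕ Fin m → F}
    (hv : sympBilin m F v (g.1 *ᵥ v) ≠ 0) :
    ∃ u ≠ 0, ∃ c ≠ 0, spFix g < spFix (spT u c * g) := by
  have h1 : g.1 *ᵥ v ≠ v := fun h => hv (by rw [h, sympBilin_self])
  refine ⟨g.1 *ᵥ v - v, sub_ne_zero.mpr h1, -(sympBilin m F v (g.1 *ᵥ v))⁻¹,
    neg_ne_zero.mpr (inv_ne_zero hv), lt_of_le_of_ne (spFix_le g v _) fun h => h1 ?_⟩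
  rw [← mem_spFix, h, mem_spFix, sp_mul_mulVec, spT_mulVec, map_sub, sympBilin_self,
    sympBilin_swap (g.1 *ᵥ v) v, zero_sub, neg_neg, neg_mul, inv_mul_cancel₀ hv]
  simp

theorem closure_spT : Subgroup.closure {g : Matrix.symplecticGroup (Fin m) F |
    ∃ v ≠ 0, ∃ c ≠ 0, g = spT v c} = ⊤ := by
  rw [eq_top_iff]
  rintro g -
  set H := Subgroup.closure {g : Matrix.symplecticGroup (Fin m) F | ∃ v ≠ 0, ∃ c ≠ 0, g = spT v c}
  have hT : ∀ v ≠ 0, ∀ c ≠ 0, spT v c ∈ H := fun v hv c hc =>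
    Subgroup.subset_closure ⟨v, hv, c, hc, rfl⟩
  induction hn : Module.finrank F (Fin m ⊕ Fin m → F) - Module.finrank F (spFix g)
    using Nat.strong_induction_on generalizing g with
  | _ n ih =>
  have step : ∀ h : Matrix.symplecticGroup (Fin m) F, spFix g ≤ spFix h →
      (∃ v, sympBilin m F v (h.1 *ᵥ v) ≠ 0) → h ∈ H := by
    rintro h hle ⟨v, hv⟩
    obtain ⟨u, hu, c, hc, hlt⟩ := exists_spFix_lt h hv
    have h1 := Submodule.finrank_lt_finrank_of_lt (hle.trans_lt hlt)
    have h2 := Submodule.finrank_le (spFix (spT u c * h))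
    have h3 : spT u c * h ∈ H := by
      refine ih _ ?_ rfl
      omega
    exact (H.mul_mem_cancel_left (hT u hu c hc)).mp h3
  by_cases h1 : ∃ v, sympBilin m F v (g.1 *ᵥ v) ≠ 0
  · exact step g le_rfl h1
  push Not at h1
  by_cases h2 : g = 1
  · exact h2 ▸ H.one_mem
  obtain ⟨x, hx⟩ : ∃ x, g.1 *ᵥ x - x ≠ 0 := by
    by_contra hcon
    push Not at hcon
    exact h2 (sp_ext fun x => by rw [sp_one_mulVec, sub_eq_zero.mp (hcon x)])
  have h3 : ∀ u v, sympBilin m F u (g.1 *ᵥ v) = sympBilin m F (g.1 *ᵥ u) v := by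
    intro u v
    have := h1 (u + v)
    rw [mulVec_add] at this
    simp only [map_add, LinearMap.add_apply, h1, sympBilin_swap v (g.1 *ᵥ u)] at this
    linear_combination this
  obtain ⟨v, hv⟩ : ∃ v, sympBilin m F v (g.1 *ᵥ x - x) ≠ 0 := by
    by_contra hcon
    push Not at hcon
    exact hx (eq_zero_of_sympBilin hcon)
  refine (H.mul_mem_cancel_left (hT _ hx 1 one_ne_zero)).mp (step _ (spFix_le g x 1) ⟨v, ?_⟩)
  have h4 : sympBilin m F (g.1 *ᵥ v) (g.1 *ᵥ x - x) = -sympBilin m F v (g.1 *ᵥ x - x) := by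
    rw [map_sub, map_sub, sp_bilin, h3]
    ring
  rw [sp_mul_mulVec, spT_mulVec, map_add, map_smul, h1, h4, zero_add, one_mul, smul_eq_mul]
  exact mul_ne_zero (neg_ne_zero.mpr hv) hv

theorem rank_spT_sub_one {v : Fin m ⊕ Fin m → F} (hv : v ≠ 0) {c : F} (hc : c ≠ 0) :
    ((spT v c).1 - 1).rank = 1 := by
  have : LinearMap.range ((spT v c).1 - 1).mulVecLin = Submodule.span F {v} := by
    apply le_antisymm
    · rintro _ ⟨x, rfl⟩
      rw [mulVecLin_apply, sub_mulVec, spT_mulVec, one_mulVec, add_sub_cancel_left]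
      exact Submodule.smul_mem _ _ (Submodule.mem_span_singleton_self v)
    · rw [Submodule.span_singleton_le_iff_mem]
      obtain ⟨x, hx⟩ : ∃ x, sympBilin m F x v ≠ 0 := by
        by_contra hcon
        push Not at hcon
        exact hv (eq_zero_of_sympBilin hcon)
      refine ⟨(c * sympBilin m F x v)⁻¹ • x, ?_⟩
      rw [map_smul, mulVecLin_apply, sub_mulVec, spT_mulVec, one_mulVec, add_sub_cancel_left,
        smul_smul, inv_mul_cancel₀ (mul_ne_zero hc hx), one_smul]
  rw [Matrix.rank, this, finrank_span_singleton hv]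

theorem eq_spT_of_rank_two {g : Matrix.symplecticGroup (Fin m) (ZMod 2)}
    (h : (g.1 - 1).rank = 1) : ∃ v ≠ 0, g = spT v 1 := by
  obtain ⟨⟨v, y, hy⟩, hv, hall⟩ := finrank_eq_one_iff'.mp h
  have hv0 : v ≠ 0 := fun e => hv (Subtype.ext e)
  rw [mulVecLin_apply, sub_mulVec, one_mulVec] at hy
  have hall' : ∀ x, ∃ c : ZMod 2, g.1 *ᵥ x = x + c • v := fun x => by
    obtain ⟨c, hc⟩ := hall ⟨_, x, rfl⟩
    have := congrArg Subtype.val hc
    simp only [SetLike.val_smul, mulVecLin_apply, sub_mulVec, one_mulVec] at this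
    exact ⟨c, by rw [this]; simp⟩
  have hy' : g.1 *ᵥ y = y + v := by rw [← hy]; simp
  have key : ∀ x (c : ZMod 2), g.1 *ᵥ x = x + c • v →
      sympBilin m _ x v = c * sympBilin m _ y v := by
    intro x c hc
    have := sp_bilin g x y
    rw [hc, hy'] at this
    simp only [map_add, map_smul, LinearMap.add_apply, LinearMap.smul_apply, smul_eq_mul,
      sympBilin_self, sympBilin_swap v y] at this
    linear_combination this
  have h1 : sympBilin m _ y v = 1 := by
    by_contra hne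
    have h0 : sympBilin m _ y v = 0 := by
      generalize sympBilin m _ y v = a at hne
      revert a; decide
    refine hv0 (eq_zero_of_sympBilin fun x => ?_)
    obtain ⟨c, hc⟩ := hall' x
    rw [key x c hc, h0, mul_zero]
  refine ⟨v, hv0, sp_ext fun x => ?_⟩
  obtain ⟨c, hc⟩ := hall' x
  rw [spT_mulVec, key x c hc, h1, hc, one_mul, mul_one]

end Cfsg.Agent.Lib.Invol
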